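import Cfsg.Agent.H978.NB.Char

/-!
# Commuting subgroups and abelian Sylow `p`-subgroups (S5002, S5003)

* `NB.of_comm_sylow` : `S` simple with abelian Sylow `p`-subgroups, `A` a nonabelian simple subgroup of order divisible by
  `p` which centralizes an element of order `p`;
* `NB.of_pair` : `A`, `B` commuting, `A` simple, the `p`-subgroups of `A` and `B` are abelian, `|S|_p ≤ |A|_p |B|_p`.
-/

set_option autoImplicit false

namespace Cfsg.Agent.H368.NBPair

open Cfsg Subgroup Cfsg.Agent.H7.NBp Cfsg.Agent.H718.NBIH Cfsg.Agent.H978.NB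

open scoped Pointwise

variable {S : Type*} [Group S] [Finite S]

/-- all `p`-subgroups are commutative as soon as one Sylow subgroup is -/
theorem comm_of_sylow {p : ℕ} [hp : Fact p.Prime] (P : Sylow p S)
    (hP : ∀ x ∈ (P : Subgroup S), ∀ y ∈ (P : Subgroup S), x * y = y * x) (Q : Sylow p S) :
    ∀ x ∈ (Q : Subgroup S), ∀ y ∈ (Q : Subgroup S), x * y = y * x := by
  obtain ⟨g, rfl⟩ := MulAction.exists_smul_eq S P Q
  intro x hx y hy
  have hx' : x ∈ MulAut.conj g • (P : Subgroup S) := hx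
  have hy' : y ∈ MulAut.conj g • (P : Subgroup S) := hy
  obtain ⟨a, ha, rfl⟩ := hx'
  obtain ⟨b, hb, rfl⟩ := hy'
  have h1 := hP a ha b hb
  show (g * a * g⁻¹) * (g * b * g⁻¹) = (g * b * g⁻¹) * (g * a * g⁻¹)
  calc (g * a * g⁻¹) * (g * b * g⁻¹) = g * (a * b) * g⁻¹ := by group
    _ = g * (b * a) * g⁻¹ := by rw [h1]
    _ = _ := by group

/-- **abelian Sylow `p`-subgroups**, a simple subgroup centralizing an element of order `p` -/
theorem NB.of_comm_sylow [IsSimpleGroup S] (hna : ¬ IsMulCommutative S) {p : ℕ} [hp : Fact p.Prime]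
    (ih : IH p (Nat.card S)) (P : Sylow p S) (hP : ∀ x ∈ (P : Subgroup S), ∀ y ∈ (P : Subgroup S), x * y = y * x)
    {A : Subgroup S} (hA : IsSimpleGroup A) (hAna : ∃ a ∈ A, ∃ b ∈ A, a * b ≠ b * a) (hpA : p ∣ Nat.card A)
    {y : S} (hy : orderOf y = p) (hyA : ∀ a ∈ A, a * y = y * a) : NB p S := by
  by_contra hnb
  have hy1 : y ≠ 1 := by
    rintro rfl
    rw [orderOf_one] at hy
    exact hp.out.one_lt.ne hy
  obtain ⟨O, hO⟩ := exists_loc hna ih hnb ⟨1, by rw [pow_one, ← hy, pow_orderOf_eq_one]⟩ hy1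
  obtain ⟨Q, hQ⟩ := hO.pg.exists_le_sylow
  have hQc := comm_of_sylow P hP Q
  have hQO : (Q : Subgroup S) ≤ O := fun g hg => hO.self g fun x hx => hQc g hg x (hQ hx)
  have hOQ : O = (Q : Subgroup S) := le_antisymm hQ hQO
  have hmax : ∀ V : Subgroup S, IsPGroup p V → O ≤ V → V ≤ O := by
    intro V hV hOV
    rw [hOQ] at hOV ⊢
    exact (Q.is_maximal' hV hOV).le
  have hn : (O.subgroupOf A).Normal := by
    constructor
    intro n hn g
    rw [mem_subgroupOf] at hn ⊢
    exact hO.norm g (hyA g g.2) n hn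
  rcases hn.eq_bot_or_eq_top with h | h
  · -- `O ⊓ A = ⊥`
    obtain ⟨a, ha⟩ := exists_prime_orderOf_dvd_card' p hpA
    have hap : IsPGroup p (zpowers (a : S)) :=
      IsPGroup.of_card (n := 1) (by rw [Nat.card_zpowers, Subgroup.orderOf_coe, ha, pow_one])
    have haN : zpowers (a : S) ≤ normalizer (O : Set S) := by
      rw [zpowers_le]
      exact mem_normalizer_fintype fun x hx => hO.norm a (hyA a a.2) x hx
    have h1 : IsPGroup p (O ⊔ zpowers (a : S) : Subgroup S) := hO.pg.to_sup_of_normal_left' hap haN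
    have h2 := hmax _ h1 le_sup_left
    have h3 : (a : S) ∈ O := h2 (mem_sup_right (mem_zpowers _))
    have h4 : a ∈ O.subgroupOf A := mem_subgroupOf.2 h3
    rw [h, mem_bot] at h4
    rw [h4, orderOf_one] at ha
    exact hp.out.one_lt.ne ha
  · rw [subgroupOf_eq_top] at h
    obtain ⟨a, ha, b, hb, hab⟩ := hAna
    exact hab (hQc a (hQ (h ha)) b (hQ (h hb)))

/-- a `p`-subgroup of full order -/
theorem exists_sub {p : ℕ} [hp : Fact p.Prime] (A : Subgroup S) :
    ∃ P : Subgroup S, P ≤ A ∧ IsPGroup p P ∧ Nat.card P = p ^ (Nat.card A).factorization p := by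
  obtain ⟨P⟩ : Nonempty (Sylow p A) := inferInstance
  refine ⟨(P : Subgroup A).map A.subtype, map_subtype_le _, P.2.map _, ?_⟩
  rw [← P.card_eq_multiplicity]
  exact Nat.card_congr (Subgroup.equivMapOfInjective _ _ A.subtype_injective).symm.toEquiv

/-- **two commuting subgroups containing a Sylow `p`-subgroup** -/
theorem NB.of_pair [IsSimpleGroup S] (hna : ¬ IsMulCommutative S) {p : ℕ} [hp : Fact p.Prime]
    (ih : IH p (Nat.card S)) {A B : Subgroup S} (hcomm : ∀ a ∈ A, ∀ b ∈ B, a * b = b * a)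
    (hA : IsSimpleGroup A) (hAna : ∃ a ∈ A, ∃ b ∈ A, a * b ≠ b * a)
    (hAc : ∀ P : Subgroup S, P ≤ A → IsPGroup p P → ∀ x ∈ P, ∀ y ∈ P, x * y = y * x)
    (hBc : ∀ P : Subgroup S, P ≤ B → IsPGroup p P → ∀ x ∈ P, ∀ y ∈ P, x * y = y * x)
    {c m : ℕ} (hpc : p ∣ c) (hcA : c ∣ Nat.card A) (hcB : c ∣ Nat.card B) (hS : Nat.card S = c ^ 2 * m)
    (hm : ¬ p ∣ m) : NB p S := by
  have hc0 : c ≠ 0 := by
    rintro rfl
    rw [zero_dvd_iff] at hcA
    exact Nat.card_pos.ne' hcA
  have hm0 : m ≠ 0 := by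
    rintro rfl
    exact hm (dvd_zero p)
  -- `A ⊓ B = ⊥`
  have hAB : A ⊓ B = ⊥ := by
    rw [eq_bot_iff]
    intro x hx
    have hn : ((center A)).Normal := inferInstance
    rcases hn.eq_bot_or_eq_top with h | h
    · have h1 : (⟨x, hx.1⟩ : A) ∈ center A := by
        rw [mem_center_iff]
        intro g
        exact Subtype.ext (hcomm g g.2 x hx.2)
      rw [h, mem_bot] at h1
      rw [mem_bot]
      exact congrArg Subtype.val h1
    · exfalso
      obtain ⟨a, ha, b, hb, hab⟩ := hAna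
      apply hab
      have h1 : (⟨b, hb⟩ : A) ∈ center A := by rw [h]; exact mem_top _
      exact congrArg Subtype.val (mem_center_iff.1 h1 ⟨a, ha⟩)
  obtain ⟨P, hPA, hPp, hPc⟩ := exists_sub (p := p) A
  obtain ⟨R, hRB, hRp, hRc⟩ := exists_sub (p := p) B
  have hcPR : ∀ x ∈ P, ∀ y ∈ R, x * y = y * x := fun x hx y hy => hcomm x (hPA hx) y (hRB hy)
  have hinf : P ⊓ R = ⊥ := by
    rw [eq_bot_iff, ← hAB]
    exact inf_le_inf hPA hRB
  let f : P × R →* S := MonoidHom.noncommCoprod P.subtype R.subtype (fun x y => hcPR x x.2 y y.2)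
  have hinj : Function.Injective f := by
    rw [injective_iff_map_eq_one]
    rintro ⟨x, y⟩ h
    have h0 : (x : S) * (y : S) = 1 := h
    have h1 : (x : S) = ((y : S))⁻¹ := eq_inv_of_mul_eq_one_left h0
    have h2 : (x : S) ∈ P ⊓ R := ⟨x.2, by rw [h1]; exact R.inv_mem y.2⟩
    rw [hinf, mem_bot] at h2
    rw [h2, one_mul] at h0
    exact Prod.ext (Subtype.ext h2) (Subtype.ext h0)
  have hcard : Nat.card f.range = p ^ ((Nat.card A).factorization p + (Nat.card B).factorization p) := by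
    rw [← Nat.card_congr (MonoidHom.ofInjective hinj).toEquiv, Nat.card_prod, hPc, hRc, pow_add]
  have hWp : IsPGroup p f.range := IsPGroup.of_card hcard
  obtain ⟨Q, hQ⟩ := hWp.exists_le_sylow
  have hQc : Nat.card (Q : Subgroup S) = p ^ (Nat.card S).factorization p := Q.card_eq_multiplicity
  have hle : (Nat.card S).factorization p ≤ (Nat.card A).factorization p + (Nat.card B).factorization p := by
    rw [hS, Nat.factorization_mul (pow_ne_zero 2 hc0) hm0, Finsupp.add_apply, Nat.factorization_pow,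
      Finsupp.smul_apply, Nat.factorization_eq_zero_of_not_dvd hm, smul_eq_mul]
    have h1 := (Nat.factorization_le_iff_dvd hc0 Nat.card_pos.ne').2 hcA p
    have h2 := (Nat.factorization_le_iff_dvd hc0 Nat.card_pos.ne').2 hcB p
    omega
  have hQW : f.range = (Q : Subgroup S) :=
    Subgroup.eq_of_le_of_card_ge hQ (by rw [hQc, hcard]; exact Nat.pow_le_pow_right hp.out.pos hle)
  have hPcomm := hAc P hPA hPp
  have hRcomm := hBc R hRB hRp
  have hQcomm : ∀ x ∈ (Q : Subgroup S), ∀ y ∈ (Q : Subgroup S), x * y = y * x := by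
    intro x hx y hy
    rw [← hQW] at hx hy
    obtain ⟨⟨x1, x2⟩, rfl⟩ := hx
    obtain ⟨⟨y1, y2⟩, rfl⟩ := hy
    rw [← map_mul, ← map_mul]
    congr 1
    exact Prod.ext (Subtype.ext (hPcomm x1 x1.2 y1 y1.2)) (Subtype.ext (hRcomm x2 x2.2 y2 y2.2))
  obtain ⟨y, hy⟩ := exists_prime_orderOf_dvd_card' p (hpc.trans hcB)
  exact NB.of_comm_sylow hna ih Q hQcomm hA hAna (hpc.trans hcA) (y := (y : S)) (by rw [Subgroup.orderOf_coe, hy])
    fun a ha => hcomm a ha y y.2

end Cfsg.Agent.H368.NBPair
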