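import Cfsg.Agent.H127.TwFInv
import Cfsg.Agent.H7.NBpCount

/-!
# `²F₄(q)`: long root elements and the star argument (S5002, S5003)

`S : Full σ G`, `z = e 2 0 1`, `p` odd, `p ∤ |C(z)| = |PL|`:

* `eq_of_pow`: `h z h⁻¹ = z` if `z (h z h⁻¹)⁻¹` is a `p`-element;
* `nb_sub`: a subgroup `T ∋ z` of `G` has a nonprincipal `p`-block.
-/

set_option autoImplicit false
set_option linter.unusedSectionVars false

namespace Cfsg.Agent.H368.NB.TwFStar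

open Cfsg.Agent.SplitTwo Cfsg.Agent.SplitTwo.ZS Cfsg.Agent.TitsThree.RankTwoZ Cfsg.Agent.KFacts.TwF4
open Cfsg.Agent.KFacts.TwF4.Perf

universe u

variable {F : Type*} [Field F] {σ : F →+* F} {G : Type u} [Group G] (S : Full σ G)

/-- `⟨X_4, …, X_12⟩` is conjugate to `⟨X_0, …, X_8⟩` -/
theorem conj_mem_PL {x : G} (hx : x ∈ J S.XZ 4 12) :
    ∃ k : G, k * x * k⁻¹ ∈ S.PL := by
  -- `n2` sends `k` to `8 - k`, `n1` sends `k` to `10 - k`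
  -- `4, …, 12` to `-4, …, 4` to `6, …, 14` to `-6, …, 2` to `8, …, 16` …; `n1 n2` is `k ↦ k + 2`
  have hr : ∀ (a b : ℤ) (y : G), y ∈ J S.XZ a b → (S.n2 * S.n1) * y * (S.n2 * S.n1)⁻¹ ∈ J S.XZ (a - 2) (b - 2) := by
    intro a b y hy
    have h1 := S.n1_refl.mem_J hy (a' := 10 - b) (b' := 10 - a) le_rfl le_rfl
    have h2 := S.n2_refl.mem_J h1 (a' := a - 2) (b' := b - 2) (by omega) (by omega)
    have e : (S.n2 * S.n1) * y * (S.n2 * S.n1)⁻¹ = S.n2 * (S.n1 * y * S.n1⁻¹) * S.n2⁻¹ := by group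
    rw [e]
    exact h2
  refine ⟨(S.n2 * S.n1) * (S.n2 * S.n1), ?_⟩
  have h1 := hr _ _ _ hx
  have h2 := hr _ _ _ h1
  have e : (S.n2 * S.n1) * (S.n2 * S.n1) * x * ((S.n2 * S.n1) * (S.n2 * S.n1))⁻¹ =
      (S.n2 * S.n1) * ((S.n2 * S.n1) * x * (S.n2 * S.n1)⁻¹) * (S.n2 * S.n1)⁻¹ := by group
  rw [e]
  exact h2

/-- every index different from `12` is near to `4` -/
theorem near : ∀ j : ZMod (2 * 8), j ≠ 12 → (∃ i : ℤ, 4 ≤ i ∧ i ≤ 11 ∧ j = (i : ZMod (2 * 8))) ∨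
    ∃ i : ℤ, -3 ≤ i ∧ i ≤ 4 ∧ j = (i : ZMod (2 * 8)) := by
  intro j hj
  have h1 : ((j.val : ℤ) : ZMod (2 * 8)) = j := by rw [Int.cast_natCast]; exact ZMod.natCast_zmod_val _
  have h2 : j.val < 16 := ZMod.val_lt _
  have h3 : j.val ≠ 12 := by
    intro h
    apply hj
    rw [← h1, h]
    rfl
  by_cases h4 : j.val < 4
  · exact Or.inr ⟨(j.val : ℤ), by omega, by omega, h1.symm⟩
  · by_cases h5 : j.val < 12
    · exact Or.inl ⟨(j.val : ℤ), by omega, by omega, h1.symm⟩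
    · refine Or.inr ⟨(j.val : ℤ) - 16, by omega, by omega, ?_⟩
      rw [Int.cast_sub, h1]
      have : ((16 : ℤ) : ZMod (2 * 8)) = 0 := by decide
      rw [this, sub_zero]

theorem eq_one_of_two {V : Subgroup G} (hV : IsPGroup 2 V) {p : ℕ} [hp : Fact p.Prime] (h2 : p ≠ 2) {x : G}
    (hx : x ∈ V) {j : ℕ} (hj : x ^ p ^ j = 1) : x = 1 := by
  obtain ⟨k, hk⟩ := hV ⟨x, hx⟩
  have hk' : x ^ 2 ^ k = 1 := congrArg Subtype.val hk
  have h1 := orderOf_dvd_of_pow_eq_one hj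
  have h3 := orderOf_dvd_of_pow_eq_one hk'
  have hc : Nat.Coprime (p ^ j) (2 ^ k) :=
    Nat.Coprime.pow _ _ ((Nat.coprime_primes hp.out Nat.prime_two).2 h2)
  exact orderOf_eq_one_iff.1 (Nat.eq_one_of_dvd_coprimes hc h1 h3)

theorem eq_one_of_not_dvd [Finite G] {V : Subgroup G} {p : ℕ} [hp : Fact p.Prime] (hV : ¬ p ∣ Nat.card V) {x : G}
    (hx : x ∈ V) {j : ℕ} (hj : x ^ p ^ j = 1) : x = 1 := by
  have h1 := orderOf_dvd_of_pow_eq_one hj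
  have h3 : orderOf x ∣ Nat.card V := by
    rw [← Subgroup.orderOf_mk x hx]
    exact orderOf_dvd_natCard _
  have hc : Nat.Coprime (p ^ j) (Nat.card V) := Nat.Coprime.pow_left _ ((Nat.Prime.coprime_iff_not_dvd hp.out).2 hV)
  exact orderOf_eq_one_iff.1 (Nat.eq_one_of_dvd_coprimes hc h1 h3)

/-- **the star argument** -/
theorem eq_of_pow [Finite F] [Finite G] (hR : S.R.p = 2) {p : ℕ} [hp : Fact p.Prime] (h2 : p ≠ 2)
    (hPL : ¬ p ∣ Nat.card S.PL) {h : G} {j : ℕ}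
    (hk : (S.e 2 0 1 * (h * S.e 2 0 1 * h⁻¹)⁻¹) ^ p ^ j = 1) : h * S.e 2 0 1 * h⁻¹ = S.e 2 0 1 := by
  set z := S.e 2 0 1 with hz
  have hzZ : z ∈ S.Zc 2 := S.mem_Zc.2 ⟨1, rfl⟩
  have hz1 : z ≠ 1 := fun h => one_ne_zero (S.e_eq_one h).2
  have hz4 : z ∈ S.R.X 4 := S.Zc_le 2 hzZ
  obtain ⟨b, hb, t, ht, w, hw, b', hb', rfl⟩ := S.bruhat h
  have hbP : b ∈ S.PL := J_mono (by norm_num) le_rfl hb
  have hbP' : b' ∈ S.PL := J_mono (by norm_num) le_rfl hb'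
  have e1 : b' * z * b'⁻¹ = z := by rw [S.comm_PL hbP' hzZ]; group
  have e0 : b * z * b⁻¹ = z := by rw [S.comm_PL hbP hzZ]; group
  set y := t * (w * z * w⁻¹) * t⁻¹ with hy
  have e2 : (b * t * w * b') * z * (b * t * w * b')⁻¹ = b * y * b⁻¹ := by
    calc (b * t * w * b') * z * (b * t * w * b')⁻¹ = b * (t * (w * (b' * z * b'⁻¹) * w⁻¹) * t⁻¹) * b⁻¹ := by group
      _ = _ := by rw [e1]
  rw [e2] at hk ⊢
  have e3 : z * (b * y * b⁻¹)⁻¹ = b * (z * y⁻¹) * b⁻¹ := by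
    calc z * (b * y * b⁻¹)⁻¹ = (b * z * b⁻¹) * (b * y * b⁻¹)⁻¹ := by rw [e0]
      _ = _ := by group
  have hk' : (z * y⁻¹) ^ p ^ j = 1 := by
    rw [e3, conj_pow] at hk
    have : b * (z * y⁻¹) ^ p ^ j = b := by
      have := mul_inv_eq_one.1 hk
      exact this
    exact mul_eq_left.1 this
  obtain ⟨i, hi⟩ : ∃ i : ZMod (2 * 8), y ∈ S.R.X i := by
    obtain ⟨c, hc | hc⟩ := hw
    · exact ⟨c + 4, (ht _ _).2 ((hc 4 z).2 hz4)⟩
    · exact ⟨c - 4, (ht _ _).2 ((hc 4 z).2 hz4)⟩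
  have key : z * y⁻¹ = 1 → b * y * b⁻¹ = z := by
    intro h
    rw [← mul_inv_eq_one.1 h, e0]
  by_cases h12 : i = 12
  · rw [h12] at hi
    have hy12 : y ∈ S.XZ 12 := hi
    have hz4' : z ∈ S.XZ 4 := hz4
    have hm : z * y⁻¹ ∈ J S.XZ 4 12 :=
      mul_mem (mem_J hz4' le_rfl (by norm_num)) (inv_mem (mem_J hy12 (by norm_num) le_rfl))
    obtain ⟨k, hkm⟩ := conj_mem_PL S hm
    refine key ?_
    have h3 : (k * (z * y⁻¹) * k⁻¹) ^ p ^ j = 1 := by rw [conj_pow, hk']; group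
    have h4 := eq_one_of_not_dvd hPL hkm h3
    have h5 : k * (z * y⁻¹) = k := mul_inv_eq_one.1 h4
    exact mul_eq_left.1 h5
  · refine key ?_
    rcases near i h12 with ⟨m, hm1, hm2, rfl⟩ | ⟨m, hm1, hm2, rfl⟩
    · have hm : z * y⁻¹ ∈ J S.XZ 4 11 :=
        mul_mem (mem_J (k := 4) hz4 le_rfl (by norm_num)) (inv_mem (mem_J (k := m) hi hm1 hm2))
      exact eq_one_of_two (two_J S hR (by norm_num)) h2 hm hk'
    · have hm : z * y⁻¹ ∈ J S.XZ (-3) 4 :=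
        mul_mem (mem_J (k := 4) hz4 (by norm_num) le_rfl) (inv_mem (mem_J (k := m) hi hm1 hm2))
      exact eq_one_of_two (two_J S hR (by norm_num)) h2 hm hk'

open Cfsg.Agent.H7.NBp in
/-- **`p ∤ |C(z)|`: nonprincipal `p`-blocks** -/
theorem nb [Finite F] [Finite G] (hR : S.R.p = 2) {p : ℕ} [hp : Fact p.Prime] (h2 : p ≠ 2)
    (hPL : ¬ p ∣ Nat.card S.PL) : NB p G := by
  have hz1 : S.e 2 0 1 ≠ 1 := fun h => one_ne_zero (S.e_eq_one h).2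
  have hz2 : S.e 2 0 1 * S.e 2 0 1 = 1 := by
    rw [S.e_mul, add_zero, zero_mul, add_zero, one_add_one_eq_two, S.two, S.e_zero]
  refine NB.of_unique (K := {x : G | ∃ h : G, x = h * S.e 2 0 1 * h⁻¹}) ?_ (g := S.e 2 0 1) ?_ ⟨1, by group⟩ ?_
  · rintro g _ ⟨h, rfl⟩
    exact ⟨g * h, by group⟩
  · rintro ⟨j, hj⟩
    have h1 := orderOf_dvd_of_pow_eq_one hj
    have h3 : orderOf (S.e 2 0 1) = 2 := orderOf_eq_prime (by rw [pow_two]; exact hz2) hz1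
    rw [h3] at h1
    exact h2 ((Nat.prime_dvd_prime_iff_eq Nat.prime_two hp.out).1 (Nat.prime_two.dvd_of_dvd_pow h1)).symm
  · rintro _ ⟨h, rfl⟩ j hj
    exact eq_of_pow S hR h2 hPL hj

/-- the primes of `|C(z)|` -/
theorem not_dvd_PL [Finite F] [Finite G] (hR : S.R.p = 2) {p : ℕ} [hp : Fact p.Prime] (h2 : p ≠ 2)
    (h1 : ¬ p ∣ Nat.card F - 1) (h3 : ¬ p ∣ 1 + Nat.card F * Nat.card F) : ¬ p ∣ Nat.card S.PL := by
  intro h
  rw [H127.TwFInv.card_PL S] at h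
  rcases hp.out.dvd_mul.1 h with h4 | h4
  · exact h1 (H127.TwFInv.prime_BT S hR hp.out h2 (h4.trans (Subgroup.card_dvd_of_le inf_le_right)))
  · exact h3 h4

end Cfsg.Agent.H368.NB.TwFStar
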